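import Mathlib
import Cfsg.Agent.H73.Resistant.Torus

/-! Two transvections along different lines generate the inversion of the plane they span. -/

set_option autoImplicit false
set_option linter.style.haveILetI false

namespace Cfsg.Agent.H73.UniqueAb

open Cfsg.Agent.H73.Resistant (fix_zpow exists_inverse_int zpow_eq_of_dvd)

theorem exists_inversion {p : ℕ} [Fact p.Prime] {V : Type*} [CommGroup V] {u v : V}
    (hu : u ^ p = 1) (hv : v ^ p = 1) {i j : ℤ} (hi : v ^ i ≠ 1) (hj : u ^ j ≠ 1) (c d : MulAut V)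
    (hcu : c u = u * v ^ i) (hcv : c v = v) (hdv : d v = v * u ^ j) (hdu : d u = u) :
    ∃ τ ∈ Subgroup.closure ({c, d} : Set (MulAut V)), τ u = u⁻¹ ∧ τ v = v⁻¹ := by
  have hdvd : ∀ {w : V} {k : ℤ}, w ^ p = 1 → w ^ k ≠ 1 → ¬ (p : ℤ) ∣ k := fun {w k} h hw hk =>
    hw ((zpow_eq_of_dvd h (b := 0) (by simpa using hk)).trans (zpow_zero w))
  obtain ⟨i', hi'⟩ := exists_inverse_int (hdvd hv hi)
  obtain ⟨j', hj'⟩ := exists_inverse_int (hdvd hu hj)
  -- normalised transvections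
  set c₁ := c ^ i' with hc₁
  set d₁ := d ^ (-j') with hd₁
  have hcu1 : c₁ u = u * v := by
    rw [hc₁, (fix_zpow c hcu (by rw [map_zpow, hcv]) i').1, ← zpow_mul,
      zpow_eq_of_dvd hv (b := 1) hi', zpow_one]
  have hcv1 : c₁ v = v :=
    (fix_zpow c (u := v) (v := 1) (by rw [hcv, mul_one]) (map_one c) i').1.trans (by simp)
  have hdv1 : d₁ v = v * u⁻¹ := by
    rw [hd₁, (fix_zpow d hdv (by rw [map_zpow, hdu]) (-j')).1, ← zpow_mul,
      show j * -j' = -(j * j') by ring, zpow_neg, zpow_eq_of_dvd hu (b := 1) hj', zpow_one]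
  have hdu1 : d₁ u = u :=
    (fix_zpow d (u := u) (v := 1) (by rw [hdu, mul_one]) (map_one d) (-j')).1.trans (by simp)
  set W := c₁ * d₁ * c₁ with hW
  have hWu : W u = v := by
    rw [hW, MulAut.mul_apply, MulAut.mul_apply, hcu1, map_mul, hdu1, hdv1, mul_comm v,
      mul_inv_cancel_left, hcv1]
  have hWv : W v = u⁻¹ := by
    rw [hW, MulAut.mul_apply, MulAut.mul_apply, hcv1, hdv1, map_mul, map_inv, hcv1, hcu1,
      mul_inv_rev, mul_inv_cancel_left]
  refine ⟨W * W, ?_, by rw [MulAut.mul_apply, hWu, hWv],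
    by rw [MulAut.mul_apply, hWv, map_inv, hWu]⟩
  have hcm : c₁ ∈ Subgroup.closure ({c, d} : Set (MulAut V)) :=
    Subgroup.zpow_mem _ (Subgroup.subset_closure (Set.mem_insert c {d})) _
  have hdm : d₁ ∈ Subgroup.closure ({c, d} : Set (MulAut V)) :=
    Subgroup.zpow_mem _ (Subgroup.subset_closure (Set.mem_insert_of_mem c (Set.mem_singleton d))) _
  exact mul_mem (mul_mem (mul_mem hcm hdm) hcm) (mul_mem (mul_mem hcm hdm) hcm)

end Cfsg.Agent.H73.UniqueAb
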