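import Mathlib
import Cfsg.Agent.H73.Resistant.Basic
import Cfsg.Agent.H73.UniqueAb.Inversion

/-! An abelian group with a group of automorphisms whose Sylow subgroups have order `p`, one of
whose elements is a transvection: the inversion on the moved plane. -/

set_option autoImplicit false
set_option linter.style.haveILetI false
set_option linter.unusedSectionVars false

namespace Cfsg.Agent.H73.UniqueAb

open Cfsg.Agent.H73.Resistant (stab mem_stab conj_mem_stab isPGroup_stab map_eq_of_forall_mem)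

/-- A transvection `c` with centre `D` and axis `Z` in a group `G` of automorphisms without
`p`-subgroups of order above `p`. -/
structure Transvection {P : Type*} [Group P] (p : ℕ) (Z D : Subgroup P) (G : Subgroup (MulAut P))
    (c : MulAut P) : Prop where
  hP : IsPGroup p P
  hcomm : ∀ a b : P, a * b = b * a
  le : D ≤ Z
  cardD : Nat.card D = p
  index : Z.index = p
  bound : ∀ K : Subgroup (MulAut P), K ≤ G → IsPGroup p K → Nat.card K ≤ p
  mem : c ∈ G
  ne_one : c ≠ 1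
  fix : ∀ z ∈ Z, c z = z
  move : ∀ e, e⁻¹ * c e ∈ D

variable {P : Type*} [Group P] [Finite P] {p : ℕ} [hp : Fact p.Prime] {Z D : Subgroup P}
  {G : Subgroup (MulAut P)} {c : MulAut P}

theorem Transvection.mem_stabD (T : Transvection p Z D G c) : c ∈ stab D ⊥ bot_le :=
  mem_stab.2 ⟨T.move, fun d hd => by simp [T.fix d (T.le hd)]⟩

theorem Transvection.isPGroup_zpowers (T : Transvection p Z D G c) :
    IsPGroup p (Subgroup.zpowers c) :=
  (isPGroup_stab T.hP bot_le).to_le (Subgroup.zpowers_le.2 T.mem_stabD)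

theorem Transvection.eq_zpowers (T : Transvection p Z D G c) {K : Subgroup (MulAut P)}
    (hK : K ≤ G) (hKp : IsPGroup p K) (hcK : c ∈ K) : Subgroup.zpowers c = K := by
  refine Subgroup.eq_of_le_of_card_ge (Subgroup.zpowers_le.2 hcK) ((T.bound K hK hKp).trans ?_)
  obtain ⟨i, hi⟩ := IsPGroup.iff_card.1 T.isPGroup_zpowers
  rw [hi]
  refine Nat.le_self_pow (fun h => T.ne_one ?_) p
  rw [h, pow_zero, Nat.card_zpowers, orderOf_eq_one_iff] at hi
  exact hi

theorem Transvection.orderOf_eq (T : Transvection p Z D G c) : orderOf c = p := by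
  obtain ⟨i, hi⟩ := IsPGroup.iff_card.1 T.isPGroup_zpowers
  have hle := T.bound _ (Subgroup.zpowers_le.2 T.mem) T.isPGroup_zpowers
  rw [Nat.card_zpowers] at hi hle
  rw [hi] at hle ⊢
  rcases i with _ | i
  · exact absurd (orderOf_eq_one_iff.1 (by simpa using hi)) T.ne_one
  · exact le_antisymm hle (Nat.le_self_pow (Nat.succ_ne_zero i) p)

theorem Transvection.conj_mem_zpowers (T : Transvection p Z D G c) {α : MulAut P} (hα : α ∈ G)
    (hmap : Z.map α.toMonoidHom = Z) : α * c * α⁻¹ ∈ Subgroup.zpowers c := by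
  have hc : c ∈ stab Z ⊥ bot_le :=
    mem_stab.2 ⟨fun e => T.le (T.move e), fun d hd => by simp [T.fix d hd]⟩
  rw [T.eq_zpowers inf_le_left ((isPGroup_stab T.hP bot_le).to_le
    (inf_le_right (a := G))) ⟨T.mem, hc⟩]
  exact ⟨G.mul_mem (G.mul_mem hα T.mem) (G.inv_mem hα),
    conj_mem_stab hmap (Subgroup.map_bot _) hc⟩

theorem Transvection.exists_gen (T : Transvection p Z D G c) :
    ∃ w : P, w ≠ 1 ∧ (∃ e, e⁻¹ * c e = w) ∧ D = Subgroup.zpowers w ∧ orderOf w = p := by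
  obtain ⟨e, he⟩ : ∃ e, e⁻¹ * c e ≠ 1 := by
    by_contra! h
    exact T.ne_one (MulEquiv.ext fun e => (inv_mul_eq_one.1 (h e)).symm)
  refine ⟨_, he, ⟨e, rfl⟩, ?_⟩
  have hw : orderOf (e⁻¹ * c e) = p := by
    have h1 : orderOf (e⁻¹ * c e) ∣ p := T.cardD ▸ Subgroup.orderOf_dvd_natCard D (T.move e)
    exact (hp.out.eq_one_or_self_of_dvd _ h1).resolve_left fun h => he (orderOf_eq_one_iff.1 h)
  exact ⟨(Subgroup.eq_of_le_of_card_ge (Subgroup.zpowers_le.2 (T.move e))
    (by rw [T.cardD, Nat.card_zpowers, hw])).symm, hw⟩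

/-- An automorphism in `G` preserving the axis preserves the centre. -/
theorem Transvection.map_center (T : Transvection p Z D G c) {α : MulAut P} (hα : α ∈ G)
    (hmap : Z.map α.toMonoidHom = Z) : ∀ v ∈ D, α v ∈ D := by
  obtain ⟨w, -, ⟨e, he⟩, hD, -⟩ := T.exists_gen
  have h1 : α * c * α⁻¹ ∈ stab D ⊥ bot_le :=
    Subgroup.zpowers_le.2 T.mem_stabD (T.conj_mem_zpowers hα hmap)
  have hw : α w ∈ D := by
    have h2 := (mem_stab.1 h1).1 (α e)
    rwa [MulAut.mul_apply, MulAut.mul_apply, MulAut.inv_apply_self, ← map_inv, ← map_mul, he] at h2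
  intro v hv
  rw [hD] at hv
  obtain ⟨k, rfl⟩ := hv
  simp only [map_zpow]
  exact D.zpow_mem hw k

theorem index_sup_eq_top {Z Y : Subgroup P} (hZ : Z.index = p) (h : ¬ Y ≤ Z) : Z ⊔ Y = ⊤ := by
  rw [← Subgroup.index_eq_one]
  have h1 : (Z ⊔ Y).index ∣ p := hZ ▸ Subgroup.index_dvd_of_le le_sup_left
  refine (hp.out.eq_one_or_self_of_dvd _ h1).resolve_right fun h2 => h ?_
  have h3 := Subgroup.relIndex_mul_index (le_sup_left : Z ≤ Z ⊔ Y)
  rw [h2, hZ] at h3
  exact le_sup_right.trans (Subgroup.relIndex_eq_one.1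
    ((Nat.mul_eq_right hp.out.ne_zero).1 h3))

/-- The automorphisms fixing two subgroups generating the group are trivial. -/
theorem eq_one_of_fix {Z Y : Subgroup P} (h : Z ⊔ Y = ⊤) {α : MulAut P} (hZ : ∀ z ∈ Z, α z = z)
    (hY : ∀ y ∈ Y, α y = y) : α = 1 := by
  refine MulEquiv.ext fun e => ?_
  have he : e ∈ Subgroup.closure ((Z : Set P) ∪ Y) := by
    rw [Subgroup.closure_union, Subgroup.closure_eq, Subgroup.closure_eq, h]
    trivial
  exact MonoidHom.eqOn_closure (f := α.toMonoidHom) (g := MonoidHom.id P)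
    (fun x hx => hx.elim (hZ x) (hY x)) he

theorem Transvection.conj_fix (T : Transvection p Z D G c) (φ : MulAut P) :
    ∀ y ∈ Z.map φ.toMonoidHom, (φ * c * φ⁻¹) y = y := by
  rintro _ ⟨z, hz, rfl⟩
  show φ (c (φ.symm (φ z))) = φ z
  rw [φ.symm_apply_apply, T.fix z hz]

theorem Transvection.conj_ne_one (T : Transvection p Z D G c) (φ : MulAut P) :
    φ * c * φ⁻¹ ≠ 1 := fun h => T.ne_one (conj_eq_one_iff.1 h)

/-- The centre is not carried into the axis by an automorphism moving the axis. -/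
theorem Transvection.gen_notMem (T : Transvection p Z D G c) {w : P}
    (hD : D = Subgroup.zpowers w) {φ : MulAut P} (hφ : φ ∈ G)
    (hmv : Z.map φ.toMonoidHom ≠ Z) : φ w ∉ Z := by
  intro hw
  set d := φ * c * φ⁻¹ with hd
  have hdG : d ∈ G := G.mul_mem (G.mul_mem hφ T.mem) (G.inv_mem hφ)
  have hdmove : ∀ e, e⁻¹ * d e ∈ Z := by
    intro e
    have h1 : e⁻¹ * d e = φ ((φ.symm e)⁻¹ * c (φ.symm e)) := by
      rw [map_mul, map_inv, φ.apply_symm_apply]; rfl
    obtain ⟨k, hk⟩ := (hD ▸ T.move (φ.symm e) : _ ∈ Subgroup.zpowers w)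
    rw [h1, ← (hk : w ^ k = _), map_zpow]
    exact Z.zpow_mem hw k
  have hdZ : Z.map d.toMonoidHom = Z := map_eq_of_forall_mem fun z hz => by
    simpa using Z.mul_mem hz (hdmove z)
  by_cases hfix : ∀ z ∈ Z, d z = z
  · have hne : ¬ Z.map φ.toMonoidHom ≤ Z := fun hle => hmv
      (Subgroup.eq_of_le_of_card_ge hle (Subgroup.card_map_of_injective φ.injective).ge)
    exact T.conj_ne_one φ (eq_one_of_fix (index_sup_eq_top T.index hne) hfix (T.conj_fix φ))
  have hc : c ∈ G ⊓ stab Z ⊥ bot_le :=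
    ⟨T.mem, mem_stab.2 ⟨fun e => T.le (T.move e), fun d hd => by simp [T.fix d hd]⟩⟩
  set U : Subgroup (MulAut P) := G ⊓ stab Z ⊥ bot_le with hU
  have hUp : IsPGroup p U := (isPGroup_stab T.hP bot_le).to_le inf_le_right
  have hdN : Subgroup.zpowers d ≤ Subgroup.normalizer (U : Set (MulAut P)) := by
    have hconj : ∀ u ∈ U, d * u * d⁻¹ ∈ U := fun u hu =>
      ⟨G.mul_mem (G.mul_mem hdG hu.1) (G.inv_mem hdG),
        conj_mem_stab hdZ (Subgroup.map_bot _) hu.2⟩
    have hmap : U.map (MulAut.conj d).toMonoidHom = U := by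
      refine Subgroup.eq_of_le_of_card_ge ?_
        (Subgroup.card_map_of_injective (MulAut.conj d).injective).ge
      rintro _ ⟨u, hu, rfl⟩
      exact hconj u hu
    refine Subgroup.zpowers_le.2 (Subgroup.mem_normalizer_iff.2 fun u => ⟨hconj u, fun hu => ?_⟩)
    obtain ⟨u', hu', he⟩ := hmap.ge hu
    rwa [← (MulAut.conj d).injective (he : MulAut.conj d u' = MulAut.conj d u)]
  have hdp : IsPGroup p (Subgroup.zpowers d) := by
    refine IsPGroup.of_card (n := 1) ?_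
    rw [pow_one, Nat.card_zpowers]
    refine orderOf_eq_prime ?_ (T.conj_ne_one φ)
    rw [hd, conj_pow, show c ^ p = 1 by
      conv_lhs => rw [← T.orderOf_eq]
      exact pow_orderOf_eq_one c, mul_one, mul_inv_cancel]
  have hK := T.eq_zpowers (sup_le (Subgroup.zpowers_le.2 hdG) inf_le_left)
    (hdp.to_sup_of_normal_right' hUp hdN) (Subgroup.mem_sup_right hc)
  obtain ⟨k, hk⟩ := hK.ge (Subgroup.mem_sup_left (Subgroup.mem_zpowers d))
  refine hfix fun z hz => ?_
  have hcZ : c ∈ stab Z ⊥ bot_le := hc.2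
  have hdZ' : d ∈ stab Z ⊥ bot_le := hk ▸ Subgroup.zpow_mem _ hcZ k
  have h1 := (mem_stab.1 hdZ').2 z hz
  exact (inv_mul_eq_one.1 (Subgroup.mem_bot.1 h1)).symm

theorem eq_one_of_sq (hp2 : p ≠ 2) {w : P} (hw : orderOf w = p) {k : ℤ}
    (h : w ^ k * w ^ k = 1) : w ^ k = 1 := by
  have h1 : (w ^ k) ^ 2 = 1 := by rw [pow_two]; exact h
  have h2 : (w ^ k) ^ p = 1 := by
    rw [← zpow_natCast, ← zpow_mul, mul_comm, zpow_mul, zpow_natCast, ← hw, pow_orderOf_eq_one,
      one_zpow]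
  have h3 := (pow_gcd_eq_one (a := w ^ k) (m := 2) (n := p)).2 ⟨h1, h2⟩
  rwa [((Nat.coprime_primes Nat.prime_two hp.out).2 (Ne.symm hp2)).gcd_eq_one, pow_one] at h3

/-- An automorphism moving the axis gives an inversion of the moved plane, which centralizes the
intersection of the axis and its image. -/
theorem Transvection.inversion (T : Transvection p Z D G c) (hp2 : p ≠ 2) {φ : MulAut P}
    (hφ : φ ∈ G) (hmv : Z.map φ.toMonoidHom ≠ Z) :
    ∃ τ ∈ G, (∀ v ∈ D, τ v = v⁻¹) ∧ (∀ v ∈ Z, v⁻¹ * τ v ∈ D) ∧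
      (∀ v ∈ Z, (τ v = v ↔ v ∈ Z.map φ.toMonoidHom)) ∧
      ∀ v ∈ Z, ∃ d ∈ D, v * d ∈ Z.map φ.toMonoidHom := by
  classical
  letI : CommGroup P := { (inferInstance : Group P) with mul_comm := T.hcomm }
  obtain ⟨w, hw1, -, hD, hwo⟩ := T.exists_gen
  have hwZ : w ∈ Z := T.le (hD ▸ Subgroup.mem_zpowers w)
  set Y := Z.map φ.toMonoidHom with hY
  set d := φ * c * φ⁻¹ with hd
  set z := φ w with hz
  have hwp : w ^ p = 1 := by
    conv_lhs => rw [← hwo]
    exact pow_orderOf_eq_one w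
  have hzp : z ^ p = 1 := by rw [hz, ← map_pow, hwp, map_one]
  have hzZ : z ∉ Z := T.gen_notMem hD hφ hmv
  have hwY : w ∉ Y := by
    rintro ⟨v, hv, hvw⟩
    refine T.gen_notMem hD (G.inv_mem hφ) (fun e => hmv ?_) ?_
    · refine map_eq_of_forall_mem fun u hu => ?_
      obtain ⟨u', hu', hu''⟩ := e.ge hu
      have : φ u = u' := by
        rw [← hu'']; exact φ.apply_symm_apply u'
      rwa [this]
    · show φ.symm w ∈ Z
      rw [← hvw]
      exact (φ.symm_apply_apply v).symm ▸ hv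
  have hYi : Y.index = p := (Subgroup.index_map_equiv Z φ).trans T.index
  have hcw : c w = w := T.fix w hwZ
  have hdz : d z = z := T.conj_fix φ z ⟨w, hwZ, rfl⟩
  obtain ⟨i, hi⟩ := (hD ▸ T.move z : z⁻¹ * c z ∈ Subgroup.zpowers w)
  have hi' : c z = z * w ^ i := by
    rw [show w ^ i = z⁻¹ * c z from hi, mul_inv_cancel_left]
  have hi1 : w ^ i ≠ 1 := fun h => T.ne_one
    (eq_one_of_fix (index_sup_eq_top T.index fun hle => hzZ (hle (Subgroup.mem_zpowers z))) T.fix
      fun y hy => by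
        obtain ⟨k, rfl⟩ := hy
        simp only [map_zpow, hi', h, mul_one])
  obtain ⟨j, hj⟩ : ∃ j : ℤ, d w = w * z ^ j := by
    obtain ⟨j, hj⟩ := (hD ▸ T.move (φ.symm w) : (φ.symm w)⁻¹ * c (φ.symm w) ∈ Subgroup.zpowers w)
    refine ⟨j, ?_⟩
    rw [hz, ← map_zpow, show w ^ j = (φ.symm w)⁻¹ * c (φ.symm w) from hj, map_mul, map_inv,
      φ.apply_symm_apply, mul_inv_cancel_left]
    rfl
  have hj1 : z ^ j ≠ 1 := fun h => T.conj_ne_one φ
    (eq_one_of_fix (index_sup_eq_top hYi fun hle => hwY (hle (Subgroup.mem_zpowers w)))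
      (T.conj_fix φ) fun y hy => by
        obtain ⟨k, rfl⟩ := hy
        show d (w ^ k) = w ^ k
        rw [map_zpow, hj, h, mul_one])
  obtain ⟨τ, hτ, -, hτw⟩ := exists_inversion hzp hwp hi1 hj1 c d hi' hcw hj hdz
  have hdG : d ∈ G := G.mul_mem (G.mul_mem hφ T.mem) (G.inv_mem hφ)
  have hτG : τ ∈ G := (Subgroup.closure_le G).2
    (fun x hx => hx.elim (fun e => e ▸ T.mem) fun e => (Set.mem_singleton_iff.1 e) ▸ hdG) hτ
  have hτfix : ∀ y ∈ Z ⊓ Y, τ y = y := by
    intro y hy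
    refine Subgroup.closure_induction (p := fun α _ => α y = y) ?_ rfl ?_ ?_ hτ
    · intro α hα
      rcases hα with h | h
      · rw [h]; exact T.fix y hy.1
      · rw [Set.mem_singleton_iff.1 h]; exact T.conj_fix φ y hy.2
    · intro α β _ _ ha hb
      rw [MulAut.mul_apply, hb, ha]
    · intro α _ ha
      conv_lhs => rw [← ha]
      exact α.symm_apply_apply y
  have hdec : ∀ v ∈ Z, ∃ k : ℤ, v * w ^ k ∈ Z ⊓ Y := by
    intro v hv
    have htop := index_sup_eq_top hYi fun hle => hwY (hle (Subgroup.mem_zpowers w))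
    obtain ⟨y, hy, _, ⟨k, rfl⟩, hyk⟩ := Subgroup.mem_sup.1 (htop.ge (Subgroup.mem_top v))
    refine ⟨-k, Z.mul_mem hv (Z.zpow_mem hwZ _), ?_⟩
    rw [← hyk, zpow_neg, mul_inv_cancel_right]
    exact hy
  have hτv : ∀ v ∈ Z, ∀ k : ℤ, v * w ^ k ∈ Z ⊓ Y → τ v = v * (w ^ k * w ^ k) := by
    intro v _ k hk
    have h1 := hτfix _ hk
    rw [map_mul, map_zpow, hτw, inv_zpow, mul_inv_eq_iff_eq_mul] at h1
    rw [h1, mul_assoc]
  refine ⟨τ, hτG, fun v hv => ?_, fun v hv => ?_, fun v hv => ?_, fun v hv => ?_⟩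
  · obtain ⟨k, rfl⟩ := (hD ▸ hv : v ∈ Subgroup.zpowers w)
    show τ (w ^ k) = (w ^ k)⁻¹
    rw [map_zpow, hτw, inv_zpow]
  · obtain ⟨k, hk⟩ := hdec v hv
    rw [hτv v hv k hk, inv_mul_cancel_left, hD]
    exact Subgroup.mul_mem _ (Subgroup.zpow_mem _ (Subgroup.mem_zpowers w) k)
      (Subgroup.zpow_mem _ (Subgroup.mem_zpowers w) k)
  · refine ⟨fun h => ?_, fun h => hτfix v ⟨hv, h⟩⟩
    obtain ⟨k, hk⟩ := hdec v hv
    rw [hτv v hv k hk, mul_eq_left] at h
    have := hk.2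
    rwa [eq_one_of_sq hp2 hwo h, mul_one] at this
  · obtain ⟨k, hk⟩ := hdec v hv
    exact ⟨w ^ k, hD ▸ Subgroup.zpow_mem _ (Subgroup.mem_zpowers w) k, hk.2⟩

end Cfsg.Agent.H73.UniqueAb
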