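import Cfsg.Agent.FusionAux.UniqueAbelian
import Cfsg.Agent.FusionAlperin.NormalCriteria
import Cfsg.Agent.FusionAlperin.Gen
import Cfsg.Agent.H73.Resistant.Basic
import Cfsg.Agent.H73.UniqueAb.Plane

/-! Core free systems with essential subgroups beside the unique abelian subgroup of index `p`. -/

set_option autoImplicit false
set_option linter.style.haveILetI false
set_option linter.unusedSectionVars false

open Cfsg Cfsg.FusionSystem Cfsg.Agent.FusionSys Cfsg.Agent.FusionAux.UniqueAbelian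
open Cfsg.Agent.H73.Resistant (stab mem_stab isPGroup_stab map_eq_of_forall_mem)
open scoped commutatorElement

namespace Cfsg.Agent.H73.UniqueAb

variable {Ω : Type*} [Group Ω] {S : Subgroup Ω} [Finite S] {p : ℕ} [hp : Fact p.Prime]
  {F : FusionSystem S} {A P : Subgroup Ω} {x : Ω}

/-- The central elements of `S` in the commutator subgroup. -/
abbrev dS (S : Subgroup Ω) : Subgroup Ω := zS S ⊓ (commutator S).map S.subtype

/-- An automorphism of the centre inverting `dS` and centralizing the quotient. -/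
def IsInv (F : FusionSystem S) (σ : MulAut (zS S)) : Prop :=
  σ ∈ F.autGroup (zS S) ∧ (∀ v : zS S, (v : Ω) ∈ dS S → σ v = v⁻¹) ∧
    ∀ v : zS S, ((v⁻¹ * σ v : zS S) : Ω) ∈ dS S

theorem restrict_aut (F : FusionSystem S) {P Q : Subgroup Ω} (hP : P ≤ S) (hQP : Q ≤ P)
    {α : MulAut P} (hα : α ∈ F.autGroup P)
    (hinv : ∀ v : P, (v : Ω) ∈ Q → ((α v : P) : Ω) ∈ Q) :
    ∃ σ ∈ F.autGroup Q, ∀ v : Q, ((σ v : Q) : Ω) = α (Subgroup.inclusion hQP v) := by
  haveI : Finite Q := finite_of_le ‹_› (hQP.trans hP)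
  have hm := restr_mem F hQP (autGroup_mem_hom F hP hα)
  have hr : (restr hQP (P.subtype.comp α.toMonoidHom)).range = Q :=
    range_eq_of_image_le (F.injective_of_mem hm)
      (by rintro _ ⟨v, rfl⟩; exact hinv _ v.2) le_rfl
  exact ⟨toIso F hm hr, toIso_mem_autGroup F hm hr, fun v => rfl⟩

theorem isInv_unique (hS : IsPGroup p S) (hF : F.IsSaturated p) {σ τ : MulAut (zS S)}
    (hσ : IsInv F σ) (hτ : IsInv F τ) : σ = τ := by
  have hZS : zS S ≤ S := inf_le_left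
  haveI : Finite (zS S) := finite_of_le ‹_› hZS
  have hN : ∀ g ∈ S, g ∈ Subgroup.normalizer (zS S : Set Ω) := by
    intro g hg
    refine (Subgroup.normal_subgroupOf_iff_le_normalizer hZS).1 ?_ hg
    refine ⟨fun v hv u => ?_⟩
    show (u : Ω) * v * (u : Ω)⁻¹ ∈ zS S
    rw [(Subgroup.mem_inf.1 (Subgroup.mem_subgroupOf.1 hv)).2 u u.2, mul_inv_cancel_right]
    exact hv
  have hfn : F.IsFullyNormalized (zS S) := by
    refine ⟨hZS, fun Q _ => ?_⟩
    rw [show normalizerIn S (zS S) = S from inf_eq_left.2 hN]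
    exact Subgroup.card_le_of_le (normalizerIn_le Q)
  have hbot : autInducedBy S (zS S) = ⊥ := by
    refine (Subgroup.eq_bot_iff_forall _).2 fun α hα => ?_
    obtain ⟨g, hg, h⟩ := mem_autInducedBy.1 hα
    refine MulEquiv.ext fun v => Subtype.ext ?_
    rw [h v, v.2.2 g hg, mul_inv_cancel_right]
    rfl
  have key : ∀ σ τ : MulAut (zS S), IsInv F σ → IsInv F τ → σ * τ = 1 := by
    intro σ τ hσ hτ
    set D := (dS S).subgroupOf (zS S) with hD
    have hmem : σ * τ ∈ stab D ⊥ bot_le := by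
      refine mem_stab.2 ⟨fun e => ?_, fun d hd => ?_⟩
      · have h1 : e⁻¹ * (σ * τ) e = (e⁻¹ * σ e) * (e⁻¹ * τ e)⁻¹ := by
          rw [MulAut.mul_apply, ← hσ.2.1 _ (hτ.2.2 e), map_mul, map_inv]
          group
        rw [h1]
        exact D.mul_mem (hσ.2.2 e) (D.inv_mem (hτ.2.2 e))
      · rw [MulAut.mul_apply, hτ.2.1 d hd, map_inv, hσ.2.1 d hd, inv_inv, inv_mul_cancel]
        exact one_mem _
    have hp' : IsPGroup p (F.autGroup (zS S) ⊓ stab D ⊥ bot_le : Subgroup (MulAut (zS S))) :=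
      (isPGroup_stab (hS.to_le hZS) bot_le).to_le inf_le_right
    have hcard := card_subgroup_le_autInducedBy (saturated_fullyNormalized hS hF hfn).2 hp'
      inf_le_left
    rw [hbot, Subgroup.card_bot] at hcard
    exact Subgroup.mem_bot.1 ((Subgroup.eq_bot_of_card_le _ hcard).le
      ⟨Subgroup.mul_mem _ hσ.1 hτ.1, hmem⟩)
  exact mul_left_cancel ((key σ σ hσ hσ).trans (key σ τ hσ hτ).symm)

/-- Automorphisms preserving the centre and `dS` preserve the fixed points of the inversion. -/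
theorem map_fixed (hS : IsPGroup p S) (hF : F.IsSaturated p) {σ₀ : MulAut (zS S)}
    (hσ₀ : IsInv F σ₀) {R : Subgroup Ω} (hRS : R ≤ S) (hZR : zS S ≤ R) {α : MulAut R}
    (hα : α ∈ F.autGroup R) (hZinv : ∀ v : R, (v : Ω) ∈ zS S → ((α v : R) : Ω) ∈ zS S)
    (hDinv : ∀ v : R, (v : Ω) ∈ dS S → ((α v : R) : Ω) ∈ dS S) (v : R) (hv : (v : Ω) ∈ zS S)
    (hfix : σ₀ ⟨v, hv⟩ = ⟨v, hv⟩) :
    σ₀ ⟨(α v : R), hZinv v hv⟩ = ⟨(α v : R), hZinv v hv⟩ := by
  haveI : Finite (zS S) := finite_of_le ‹_› (hZR.trans hRS)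
  obtain ⟨σ, hσ, hσv⟩ := restrict_aut F hRS hZR hα hZinv
  set D := (dS S).subgroupOf (zS S) with hD
  have hDmap : D.map σ.toMonoidHom = D := map_eq_of_forall_mem fun d hd => by
    show ((σ d : zS S) : Ω) ∈ dS S
    rw [hσv]
    exact hDinv _ hd
  have hmem : IsInv F (σ * σ₀ * σ⁻¹) := by
    refine ⟨Subgroup.mul_mem _ (Subgroup.mul_mem _ hσ hσ₀.1) (Subgroup.inv_mem _ hσ),
      fun d hd => ?_, fun e => ?_⟩
    · obtain ⟨d', hd', rfl⟩ := hDmap.ge (show d ∈ D from hd)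
      show σ (σ₀ (σ.symm (σ d'))) = (σ d')⁻¹
      rw [σ.symm_apply_apply, hσ₀.2.1 d' hd', map_inv]
    · show e⁻¹ * (σ * σ₀ * σ⁻¹) e ∈ D
      have h1 : e⁻¹ * (σ * σ₀ * σ⁻¹) e = σ ((σ.symm e)⁻¹ * σ₀ (σ.symm e)) := by
        rw [map_mul, map_inv, σ.apply_symm_apply]; rfl
      rw [h1]
      exact hDmap.le ⟨_, hσ₀.2.2 _, rfl⟩
  have hcomm : σ * σ₀ = σ₀ * σ :=
    mul_inv_eq_iff_eq_mul.1 (isInv_unique hS hF hmem hσ₀)
  have h2 : σ ⟨v, hv⟩ = ⟨(α v : R), hZinv v hv⟩ := Subtype.ext (hσv ⟨v, hv⟩)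
  rw [← h2]
  have h3 := DFunLike.congr_fun hcomm (⟨v, hv⟩ : zS S)
  rw [MulAut.mul_apply, MulAut.mul_apply, hfix] at h3
  exact h3.symm

/-- In the abelian case the group is abelian, with `P ∩ A` the centre. -/
theorem inf_eq_center (h : Setup F p A P x) (hab : P ⊓ A ≤ zS S) : P ⊓ A = zS S :=
  le_antisymm hab (le_inf h.center_le_P h.center_le)

theorem eq_sup (h : Setup F p A P x) (hab : P ⊓ A ≤ zS S) :
    P = zS S ⊔ Subgroup.zpowers x := by
  refine le_antisymm (fun g hg => ?_)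
    (sup_le h.center_le_P (Subgroup.zpowers_le.2 h.hxP))
  obtain ⟨b, hb, n, rfl⟩ := h.decompP h.hxP h.hxA g hg
  exact Subgroup.mul_mem_sup (hab hb) (Subgroup.pow_mem _ (Subgroup.mem_zpowers x) n)

theorem comm_P (h : Setup F p A P x) (hab : P ⊓ A ≤ zS S) (u v : P) : u * v = v * u := by
  obtain ⟨b, hb, n, hu⟩ := h.decompP h.hxP h.hxA u u.2
  obtain ⟨d, hd, m, hv⟩ := h.decompP h.hxP h.hxA v v.2
  refine Subtype.ext ?_
  show (u : Ω) * v = v * u
  rw [hu, hv]
  have hb' : ∀ g ∈ S, Commute b g := fun g hg => ((hab hb).2 g hg).symm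
  have hd' : ∀ g ∈ S, Commute d g := fun g hg => ((hab hd).2 g hg).symm
  exact (((hb' d (h.hPS hd.1)).mul_right ((hb' x h.xS).pow_right m)).mul_left
    (((hd' x h.xS).symm.pow_left n).mul_right ((Commute.refl x).pow_pow n m))).eq

theorem card_autInducedBy (h : Setup F p A P x) (hab : P ⊓ A ≤ zS S) :
    Nat.card (autInducedBy S P) = p := by
  haveI : Finite P := finite_of_le ‹_› h.hPS
  have hC : centralizerIn S P = P := le_antisymm (centralizerIn_self_centric h.hP.1)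
    fun g hg => ⟨h.hPS hg, fun v hv => congrArg Subtype.val (comm_P h hab ⟨v, hv⟩ ⟨g, hg⟩)⟩
  have h1 := card_autInducedBy_mul (S := S) P
  rw [hC] at h1
  have hPN : P ≤ normalizerIn S P := le_normalizerIn h.hPS
  have h2 := (P.subgroupOf (normalizerIn S P)).card_mul_index
  rw [show (P.subgroupOf (normalizerIn S P)).index = p from h.index_normalizer,
    Nat.card_congr (Subgroup.subgroupOfEquivOfLe hPN).toEquiv, ← h1,
    mul_comm (Nat.card (autInducedBy S P))] at h2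
  exact (Nat.eq_of_mul_eq_mul_left Nat.card_pos h2).symm

/-- The transvection given by `N_S(P)`. -/
theorem exists_transvection (h : Setup F p A P x) (hab : P ⊓ A ≤ zS S)
    (hD : Nat.card (dS S) = p) : ∃ c : MulAut P,
      Transvection p ((zS S).subgroupOf P) ((dS S).subgroupOf P) (F.autGroup P) c := by
  haveI : Finite P := finite_of_le ‹_› h.hPS
  obtain ⟨a, ha, haN, haP⟩ := h.exists_norm
  refine ⟨P.normalizerMonoidHom ⟨a, haN⟩,
    ⟨h.hS.to_le h.hPS, comm_P h hab, fun v hv => hv.1, ?_, ?_, ?_, ?_, ?_, ?_, ?_⟩⟩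
  · rw [Nat.card_congr (Subgroup.subgroupOfEquivOfLe (inf_le_left.trans h.center_le_P)).toEquiv,
      hD]
  · rw [← inf_eq_center h hab, Subgroup.inf_subgroupOf_left]
    exact h.relA h.hPS fun e => h.hxA (e h.hxP)
  · intro K hK hKp
    rw [← card_autInducedBy h hab]
    exact card_subgroup_le_autInducedBy
      (saturated_fullyNormalized h.hS h.hF h.hP.2.1).2 hKp hK
  · exact Resistant.conjAut_mem_autGroup h.hPS (g := a) ⟨h.hAS ha, haN⟩
  · intro e
    refine haP (centralizerIn_self_centric h.hP.1 ⟨h.hAS ha, fun v hv => ?_⟩)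
    have h1 : a * v * a⁻¹ = v :=
      congrArg Subtype.val (DFunLike.congr_fun e (⟨v, hv⟩ : P))
    exact (mul_inv_eq_iff_eq_mul.1 h1).symm
  · intro z hz
    refine Subtype.ext ?_
    show a * (z : Ω) * a⁻¹ = z
    rw [(Subgroup.mem_inf.1 (Subgroup.mem_subgroupOf.1 hz)).2 a (h.hAS ha), mul_inv_cancel_right]
  · intro e
    have hm : ⁅a, (e : Ω)⁆ ∈ dS S := by
      refine ⟨hab (h.norm_comm ha haN e.2), ⟨⁅⟨a, h.hAS ha⟩, ⟨e, h.hPS e.2⟩⁆,
        Subgroup.commutator_mem_commutator (Subgroup.mem_top _) (Subgroup.mem_top _),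
        map_commutatorElement S.subtype _ _⟩⟩
    show ((e⁻¹ * P.normalizerMonoidHom ⟨a, haN⟩ e : P) : Ω) ∈ dS S
    rw [comm_P h hab]
    exact hm

/-- An automorphism moving the centre gives the inversion, whose fixed points are the central
elements in the image of the centre. -/
theorem exists_inv_of_move (h : Setup F p A P x) (hab : P ⊓ A ≤ zS S) (hp2 : p ≠ 2)
    (hD : Nat.card (dS S) = p) {φ : MulAut P} (hφ : φ ∈ F.autGroup P)
    (hmv : ((zS S).subgroupOf P).map φ.toMonoidHom ≠ (zS S).subgroupOf P) :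
    ∃ σ : MulAut (zS S), IsInv F σ ∧
      (∀ v : zS S, σ v = v ↔ Subgroup.inclusion h.center_le_P v ∈
        ((zS S).subgroupOf P).map φ.toMonoidHom) ∧
      ∀ v : zS S, ∃ u : zS S, (u : Ω) ∈ dS S ∧ σ (v * u) = v * u := by
  haveI : Finite P := finite_of_le ‹_› h.hPS
  obtain ⟨c, T⟩ := exists_transvection h hab hD
  obtain ⟨τ, hτ, hinv, hmove, hfix, hdec⟩ := T.inversion hp2 hφ hmv
  obtain ⟨σ, hσ, hσv⟩ := restrict_aut F h.hPS h.center_le_P hτ (fun v hv => by
    have h1 : v⁻¹ * τ v ∈ (zS S).subgroupOf P := T.le (hmove v hv)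
    exact (Subgroup.mul_mem_cancel_left ((zS S).subgroupOf P) (Subgroup.inv_mem _ hv)).1 h1)
  have hiff : ∀ v : zS S, σ v = v ↔ Subgroup.inclusion h.center_le_P v ∈
      ((zS S).subgroupOf P).map φ.toMonoidHom := by
    intro v
    rw [← hfix (Subgroup.inclusion h.center_le_P v) v.2]
    exact ⟨fun e => Subtype.ext ((hσv v).symm.trans (congrArg Subtype.val e)),
      fun e => Subtype.ext ((hσv v).trans (congrArg Subtype.val e))⟩
  refine ⟨σ, ⟨hσ, fun v hv => Subtype.ext ?_, fun v => ?_⟩, hiff, fun v => ?_⟩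
  · exact (hσv v).trans (congrArg Subtype.val (hinv (Subgroup.inclusion h.center_le_P v) hv))
  · have h1 := hmove (Subgroup.inclusion h.center_le_P v) v.2
    rw [Subgroup.coe_mul, Subgroup.coe_inv, hσv]
    exact h1
  · obtain ⟨d, hd, hvd⟩ := hdec (Subgroup.inclusion h.center_le_P v) v.2
    refine ⟨⟨d, T.le hd⟩, hd, (hiff _).2 ?_⟩
    rw [map_mul]
    exact hvd

/-- Automorphisms of essential subgroups preserve the fixed points of the inversion. -/
theorem map_fixed_essential (h : Setup F p A P x) (hp2 : p ≠ 2) (hD : Nat.card (dS S) = p)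
    {σ₀ : MulAut (zS S)} (hσ₀ : IsInv F σ₀) {α : MulAut P} (hα : α ∈ F.autGroup P)
    (v : P) (hv : (v : Ω) ∈ zS S) (hfix : σ₀ ⟨v, hv⟩ = ⟨v, hv⟩) :
    ∃ hw : ((α v : P) : Ω) ∈ zS S, σ₀ ⟨(α v : P), hw⟩ = ⟨(α v : P), hw⟩ := by
  haveI : Finite P := finite_of_le ‹_› h.hPS
  by_cases hab : P ⊓ A ≤ zS S
  · by_cases hmap : ((zS S).subgroupOf P).map α.toMonoidHom = (zS S).subgroupOf P
    · have hZinv : ∀ v : P, (v : Ω) ∈ zS S → ((α v : P) : Ω) ∈ zS S := fun v hv =>
        hmap.le ⟨v, hv, rfl⟩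
      obtain ⟨c, T⟩ := exists_transvection h hab hD
      exact ⟨hZinv v hv, map_fixed h.hS h.hF hσ₀ h.hPS h.center_le_P hα hZinv
        (fun u hu => T.map_center hα hmap u hu) v hv hfix⟩
    · obtain ⟨σ, hσ, hiff, -⟩ := exists_inv_of_move h hab hp2 hD hα hmap
      have hmap' : ((zS S).subgroupOf P).map (α⁻¹).toMonoidHom ≠ (zS S).subgroupOf P := fun e =>
        hmap (map_eq_of_forall_mem fun u hu => by
          obtain ⟨u', hu', hu''⟩ := e.ge hu
          have : α u = u' := by rw [← hu'']; exact α.apply_symm_apply u'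
          rwa [this])
      obtain ⟨σ', hσ', hiff', -⟩ := exists_inv_of_move h hab hp2 hD (Subgroup.inv_mem _ hα) hmap'
      rw [isInv_unique h.hS h.hF hσ₀ hσ'] at hfix
      obtain ⟨u, hu, huv⟩ := (hiff' _).1 hfix
      have hw : ((α v : P) : Ω) ∈ zS S := by
        have e : α v = u := by
          rw [show v = α.symm u from huv.symm]; exact α.apply_symm_apply u
        rw [e]; exact hu
      refine ⟨hw, ?_⟩
      rw [isInv_unique h.hS h.hF hσ₀ hσ]
      exact (hiff _).2 ⟨v, hv, Subtype.ext rfl⟩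
  · have hZinv : ∀ v : P, (v : Ω) ∈ zS S → ((α v : P) : Ω) ∈ zS S := fun v hv =>
      h.center_inv hab hv
    refine ⟨hZinv v hv, map_fixed h.hS h.hF hσ₀ h.hPS h.center_le_P hα hZinv ?_ v hv hfix⟩
    obtain ⟨b, hb, hbZ⟩ := SetLike.not_le_iff_exists.1 hab
    set w : P := ⁅(⟨b, hb.1⟩ : P), ⟨x, h.hxP⟩⁆ with hw
    have hmem : ∀ u u' : P, ((⁅u, u'⁆ : P) : Ω) ∈ dS S := fun u u' =>
      ⟨h.comm_center hab u.2 u'.2, ⟨⁅⟨u, h.hPS u.2⟩, ⟨u', h.hPS u'.2⟩⁆,
        Subgroup.commutator_mem_commutator (Subgroup.mem_top _) (Subgroup.mem_top _), rfl⟩⟩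
    have hw1 : (w : Ω) ≠ 1 := fun e => hbZ
      (h.centr hb.2 h.xS h.hxA (commutatorElement_eq_one_iff_mul_comm.1 e))
    have hgen : dS S = Subgroup.zpowers (w : Ω) := by
      haveI : Finite (dS S) := finite_of_le ‹_› (inf_le_left.trans inf_le_left)
      refine (Subgroup.eq_of_le_of_card_ge (Subgroup.zpowers_le.2 (hmem _ _)) ?_).symm
      rw [hD, Nat.card_zpowers]
      have h1 : orderOf (w : Ω) ∣ p := hD ▸ Subgroup.orderOf_dvd_natCard _ (hmem _ _)
      exact ((hp.out.eq_one_or_self_of_dvd _ h1).resolve_left fun e =>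
        hw1 (orderOf_eq_one_iff.1 e)).ge
    intro u hu
    obtain ⟨k, hk⟩ := (hgen ▸ hu : (u : Ω) ∈ Subgroup.zpowers (w : Ω))
    rw [show u = w ^ k from Subtype.ext (by rw [SubgroupClass.coe_zpow]; exact hk.symm), map_zpow,
      SubgroupClass.coe_zpow]
    refine Subgroup.zpow_mem _ ?_ k
    rw [hw, map_commutatorElement]
    exact hmem _ _

/-- Without a nontrivial core the centre of `S` lies in the commutator subgroup. -/
theorem center_eq (h : Setup F p A P x) (hab : P ⊓ A ≤ zS S) (hp2 : p ≠ 2)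
    (hD : Nat.card (dS S) = p) (hcore : F.core = ⊥) (hAe : ¬ F.IsEssential p A) :
    zS S = dS S := by
  haveI : Finite P := finite_of_le ‹_› h.hPS
  have hZS : zS S ≤ S := inf_le_left
  obtain ⟨β, hβ, b, hb, hbA⟩ := h.moved
  have hmv : ((zS S).subgroupOf P).map β.toMonoidHom ≠ (zS S).subgroupOf P := fun e =>
    hbA (h.center_le (e.le ⟨b, hab ⟨b.2, hb⟩, rfl⟩))
  obtain ⟨σ₀, hσ₀, -, hdec⟩ := exists_inv_of_move h hab hp2 hD hβ hmv
  set W : Subgroup Ω :=
    (MonoidHom.eqLocus σ₀.toMonoidHom (MonoidHom.id (zS S))).map (zS S).subtype with hW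
  have hmemW : ∀ {w : Ω}, w ∈ W ↔ ∃ hw : w ∈ zS S, σ₀ ⟨w, hw⟩ = ⟨w, hw⟩ := fun {w} =>
    ⟨by rintro ⟨u, hu, rfl⟩; exact ⟨u.2, hu⟩, fun ⟨hw, hu⟩ => ⟨⟨w, hw⟩, hu, rfl⟩⟩
  have hWZ : W ≤ zS S := Subgroup.map_subtype_le _
  have hnorm : F.IsNormal W := by
    refine FusionAlperin.isNormal_of_autGroups h.hS h.hF fun R hR => ?_
    have hR' : R ≤ S ∧ zS S ≤ R ∧ ∀ α ∈ F.autGroup R, ∀ v : R, (v : Ω) ∈ W →
        ((α v : R) : Ω) ∈ W := by
      rcases hR with rfl | hR
      · refine ⟨le_rfl, hZS, fun α hα v hv => hmemW.2 ?_⟩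
        obtain ⟨hv, hfix⟩ := hmemW.1 hv
        have hZinv : ∀ v : R, (v : Ω) ∈ zS R → ((α v : R) : Ω) ∈ zS R := fun v hv => by
          refine ⟨(α v).2, fun g hg => ?_⟩
          obtain ⟨g', hg'⟩ := α.surjective ⟨g, hg⟩
          have h1 : g' * v = v * g' := Subtype.ext (hv.2 g' g'.2)
          exact congrArg Subtype.val
            (by rw [← hg', ← map_mul, h1, map_mul] : (⟨g, hg⟩ : R) * α v = α v * ⟨g, hg⟩)
        refine ⟨hZinv v hv, map_fixed h.hS h.hF hσ₀ le_rfl hZS hα hZinv (fun u hu => ?_) v hv hfix⟩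
        obtain ⟨u', hu', he⟩ := hu.2
        refine ⟨hZinv u hu.1, α u, ?_, rfl⟩
        have e : u = u' := (Subtype.ext he).symm
        rw [e]
        exact ((Subgroup.characteristic_iff_map_eq.1 inferInstance α :
          (commutator R).map α.toMonoidHom = commutator R)).le ⟨u', hu', rfl⟩
      · obtain ⟨y, hyR, hyA⟩ := exists_mem_notMem h.hS hR h.hAS h.comm
          fun e => hAe (e ▸ hR)
        have h' : Setup F p A R y :=
          ⟨h.hS, h.hF, h.hAS, h.comm, h.index, h.nonab, h.huniq, hR, hyR, hyA⟩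
        refine ⟨h'.hPS, h'.center_le_P, fun α hα v hv => hmemW.2 ?_⟩
        obtain ⟨hv, hfix⟩ := hmemW.1 hv
        exact map_fixed_essential h' hp2 hD hσ₀ hα v hv hfix
    haveI : Finite R := finite_of_le ‹_› hR'.1
    exact ⟨hWZ.trans hR'.2.1, fun α hα => map_eq_of_forall_mem fun v hv => hR'.2.2 α hα v hv⟩
  have hbot : W = ⊥ := le_bot_iff.1 ((le_sSup (s := {Q : Subgroup Ω | F.IsNormal Q}) hnorm).trans hcore.le)
  refine le_antisymm (fun z hz => ?_) inf_le_left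
  obtain ⟨u, hu, hfix⟩ := hdec ⟨z, hz⟩
  have h1 : z * u = 1 :=
    Subgroup.mem_bot.1 (hbot.le (hmemW.2 ⟨(zS S).mul_mem hz u.2, hfix⟩))
  rw [eq_inv_of_mul_eq_one_left h1]
  exact (dS S).inv_mem hu

end Cfsg.Agent.H73.UniqueAb
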